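import Mathlib
import Cfsg.Agent.Lib.Helper44.FW.Defs

/-!
# Project FW (S3211), package [TRANS]

Transport of the `SL₂(F)` facts to a subgroup `L ≅ SL₂(F)` containing the involution `j`.
-/

set_option autoImplicit false

namespace Cfsg.Agent.Lib.Helper22.FW

open Cfsg.Agent.Lib.Helper44.FW

universe u v

theorem trans_two_ne_zero (F : Type v) [Field F] [Fintype F] (hodd : Odd (Fintype.card F)) :
    (2 : F) ≠ 0 := by
  apply Ring.two_ne_zero
  intro h
  have h2 := FiniteField.even_card_of_char_two h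
  rcases hodd with ⟨k, hk⟩
  omega

theorem trans_qA_sq (F : Type v) [Field F] : (qA F) ^ 2 = negOne F := by
  apply Subtype.ext
  rw [pow_two, Matrix.SpecialLinearGroup.coe_mul]
  show (!![0, -1; 1, 0] * !![0, -1; 1, 0] : Matrix (Fin 2) (Fin 2) F) = !![-1, 0; 0, -1]
  ext a b
  fin_cases a <;> fin_cases b <;> simp [Matrix.mul_apply, Fin.sum_univ_two]

/-- [TRANS] -/
theorem pkgTrans : PkgSL2U.{v} → PkgSL2SQ.{v} → PkgTrans.{u, v} := by
  intro hU hSQ G _ F _ _ hodd L ⟨e⟩ j hjL hj
  have h2 : (2 : F) ≠ 0 := trans_two_ne_zero F hodd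
  have hj2 : j ^ 2 = 1 := by rw [← hj]; exact pow_orderOf_eq_one j
  have hj1 : j ≠ 1 := by
    intro h
    rw [h, orderOf_one] at hj
    norm_num at hj
  -- `e j = -1`
  have hej : e ⟨j, hjL⟩ = negOne F := by
    have h1 : (e ⟨j, hjL⟩) ^ 2 = 1 := by
      rw [← map_pow]
      have : (⟨j, hjL⟩ : L) ^ 2 = 1 := Subtype.ext (by simpa using hj2)
      rw [this, map_one]
    rcases hU F h2 _ h1 with h | h
    · exfalso
      apply hj1
      have : (⟨j, hjL⟩ : L) = 1 := e.injective (by rw [h, map_one])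
      exact congrArg Subtype.val this
    · exact h
  refine ⟨?_, ?_, ?_⟩
  · intro x hx hx2
    have h1 : (e ⟨x, hx⟩) ^ 2 = 1 := by
      rw [← map_pow]
      have : (⟨x, hx⟩ : L) ^ 2 = 1 := Subtype.ext (by simpa using hx2)
      rw [this, map_one]
    rcases hU F h2 _ h1 with h | h
    · left
      have : (⟨x, hx⟩ : L) = 1 := e.injective (by rw [h, map_one])
      exact congrArg Subtype.val this
    · right
      have : (⟨x, hx⟩ : L) = ⟨j, hjL⟩ := e.injective (by rw [h, hej])
      exact congrArg Subtype.val this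
  · refine ⟨(e.symm (qA F) : L), (e.symm (qA F)).2, ?_⟩
    have h1 : (e.symm (qA F)) ^ 2 = (⟨j, hjL⟩ : L) := by
      apply e.injective
      rw [map_pow, MulEquiv.apply_symm_apply, hej, trans_qA_sq]
    have := congrArg Subtype.val h1
    simpa using this
  · intro x hx hx2 u hu u' hu' huu hu'u
    have hx' : (e ⟨x, hx⟩) ^ 2 = negOne F := by
      rw [← map_pow, ← hej]
      congr 1
      exact Subtype.ext (by simpa using hx2)
    have hu1 : (e ⟨u, hu⟩) ^ 2 = e ⟨x, hx⟩ := by
      rw [← map_pow]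
      congr 1
      exact Subtype.ext (by simpa using huu)
    have hu2 : (e ⟨u', hu'⟩) ^ 2 = e ⟨x, hx⟩ := by
      rw [← map_pow]
      congr 1
      exact Subtype.ext (by simpa using hu'u)
    rcases hSQ F h2 _ _ _ hx' hu1 hu2 with h | h
    · left
      have : (⟨u', hu'⟩ : L) = ⟨u, hu⟩ := e.injective h
      exact congrArg Subtype.val this
    · right
      have : (⟨u', hu'⟩ : L) = ⟨u, hu⟩ * ⟨j, hjL⟩ := e.injective (by rw [h, map_mul, hej])
      exact congrArg Subtype.val this

end Cfsg.Agent.Lib.Helper22.FW
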